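import Cfsg.Agent.H951.Lin

/-!
# S3691, `PΩ⁻_18(2)`: 3-groups with small fixed spaces (helper383)

* `rank_false` : a group of linear maps of `F_2 ^ 18` of order divisible by `3 ^ 4` contains an element of order three with a
  fixed space of dimension at least three
-/

set_option autoImplicit false
set_option linter.unusedSectionVars false

namespace Cfsg.Agent.H383.Mn

open Module
open Cfsg.Agent.H951 (fx cm mem_fx mem_cm)

section ker

variable {F : Type*} [Field F] {V : Type*} [AddCommGroup V] [Module F V] [FiniteDimensional F V]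

theorem finrank_ker_mul (a b : Module.End F V) :
    finrank F (LinearMap.ker (a * b)) ≤ finrank F (LinearMap.ker a) + finrank F (LinearMap.ker b) := by
  have h1 : (LinearMap.ker (a * b)).map b ≤ LinearMap.ker a := by
    rintro _ ⟨v, hv, rfl⟩
    rw [LinearMap.mem_ker]
    exact hv
  have h2 : LinearMap.ker (b.domRestrict (LinearMap.ker (a * b))) ≤
      (LinearMap.ker b).comap (LinearMap.ker (a * b)).subtype := fun v hv => hv
  have h3 := LinearMap.finrank_range_add_finrank_ker (b.domRestrict (LinearMap.ker (a * b)))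
  have h4 : finrank F (LinearMap.range (b.domRestrict (LinearMap.ker (a * b)))) ≤ finrank F (LinearMap.ker a) := by
    refine Submodule.finrank_mono ?_
    rintro _ ⟨v, rfl⟩
    rw [LinearMap.mem_ker]
    exact v.2
  have h5 : finrank F (LinearMap.ker (b.domRestrict (LinearMap.ker (a * b)))) ≤ finrank F (LinearMap.ker b) := by
    let φ : LinearMap.ker (b.domRestrict (LinearMap.ker (a * b))) →ₗ[F] LinearMap.ker b :=
      { toFun := fun v => ⟨((v : LinearMap.ker (a * b)) : V), v.2⟩
        map_add' := fun _ _ => rfl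
        map_smul' := fun _ _ => rfl }
    refine LinearMap.finrank_le_finrank_of_injective (f := φ) ?_
    intro v w hvw
    have : ((v : LinearMap.ker (a * b)) : V) = ((w : LinearMap.ker (a * b)) : V) := congrArg (fun x : LinearMap.ker b => (x : V)) hvw
    exact Subtype.ext (Subtype.ext this)
  omega

/-- two commuting elements of order three -/
theorem cm_le {y z : Module.End F V} (hyz : y * z = z * y) (hy : y ^ 3 = 1) (hz : z ^ 3 = 1) {c : ℕ}
    (h1 : finrank F (fx y) ≤ c) (h2 : finrank F (fx (z ^ 2 * y)) ≤ c) (h3 : finrank F (fx (z * y)) ≤ c) :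
    finrank F (cm z) ≤ 3 * c := by
  have hk : ∀ a : Module.End F V, a * z = z * a → ∀ b : Module.End F V, b * a = 1 →
      LinearMap.ker (y - a) ≤ fx (b * y) := by
    intro a _ b hab v hv
    rw [LinearMap.mem_ker, LinearMap.sub_apply, sub_eq_zero] at hv
    rw [mem_fx, Module.End.mul_apply, hv, ← Module.End.mul_apply, hab, Module.End.one_apply]
  have e1 : finrank F (LinearMap.ker (y - 1)) ≤ c := h1
  have e2 : finrank F (LinearMap.ker (y - z)) ≤ c :=
    (Submodule.finrank_mono (hk z rfl (z ^ 2) (by rw [← pow_succ, hz]))).trans h2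
  have e3 : finrank F (LinearMap.ker (y - z ^ 2)) ≤ c :=
    (Submodule.finrank_mono (hk (z ^ 2) (by rw [← pow_succ, ← pow_succ']) z (by rw [← pow_succ', hz]))).trans h3
  have h4 : cm z ≤ LinearMap.ker ((y - 1) * ((y - z) * (y - z ^ 2))) := by
    rintro _ ⟨v, rfl⟩
    rw [LinearMap.mem_ker, ← Module.End.mul_apply]
    have h5 : (y - 1) * ((y - z) * (y - z ^ 2)) * (z - 1) = 0 := by
      have hc : Commute y z := hyz
      have hyz2 : y * z ^ 2 = z ^ 2 * y := (hc.pow_right 2).eq
      have hzz : z * z ^ 2 = 1 := by rw [← pow_succ', hz]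
      have e1 : (y - z) * (y - z ^ 2) = y ^ 2 + y + 1 - (z ^ 2 + z + 1) * y := by
        rw [sub_mul, mul_sub, mul_sub, hyz2, hzz]
        noncomm_ring
      have e2 : (y - 1) * (y ^ 2 + y + 1) = 0 := by
        have : (y - 1) * (y ^ 2 + y + 1) = y ^ 3 - 1 := by noncomm_ring
        rw [this, hy, sub_self]
      have e3 : (z ^ 2 + z + 1) * (z - 1) = 0 := by
        have : (z ^ 2 + z + 1) * (z - 1) = z ^ 3 - 1 := by noncomm_ring
        rw [this, hz, sub_self]
      have e4 : y * (z - 1) = (z - 1) * y := by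
        rw [mul_sub, sub_mul, hc.eq, mul_one, one_mul]
      have e5 : (y - 1) * (y ^ 2 + y + 1 - (z ^ 2 + z + 1) * y) = -((y - 1) * ((z ^ 2 + z + 1) * y)) := by
        rw [mul_sub, e2, zero_sub]
      rw [e1, e5, neg_mul, mul_assoc, mul_assoc, e4, ← mul_assoc _ _ y, e3, zero_mul, mul_zero, neg_zero]
    rw [h5, LinearMap.zero_apply]
  have h6 := Submodule.finrank_mono h4
  have h7 := finrank_ker_mul (y - 1) ((y - z) * (y - z ^ 2))
  have h8 := finrank_ker_mul (y - z) (y - z ^ 2)
  omega

end ker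

/-- a group acting freely -/
theorem card_dvd_of_free {K : Type*} [Group K] {X : Type*} [MulAction K X] (h : ∀ (g : K) (x : X), g • x = x → g = 1) :
    Nat.card K ∣ Nat.card X := by
  have h1 : ∀ x : X, MulAction.stabilizer K x = ⊥ := by
    intro x
    rw [eq_bot_iff]
    intro g hg
    exact h g x hg
  rw [Nat.card_congr (MulAction.selfEquivOrbitsQuotientProd h1), Nat.card_prod]
  exact dvd_mul_left _ _

section main

variable {F : Type*} [Field F] [Finite F] {V : Type*} [AddCommGroup V] [Module F V] [FiniteDimensional F V]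

/-- **a group of order divisible by `81`** on `F_2 ^ 18` contains an element of order three with `dim C_V(x) ≥ 3` -/
theorem rank_false (hF : Nat.card F = 2) (hn : finrank F V = 18) (A : Subgroup (V ≃ₗ[F] V)) (h81 : 3 ^ 4 ∣ Nat.card A)
    (hfx : ∀ x ∈ A, x ^ 3 = 1 → x ≠ 1 → finrank F (fx (x : Module.End F V)) ≤ 2) : False := by
  classical
  have hV : Finite V := Module.finite_of_finite F
  have hfin : Finite (V ≃ₗ[F] V) := Finite.of_injective (fun g : V ≃ₗ[F] V => (g : V → V)) DFunLike.coe_injective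
  have hp3 : Fact (Nat.Prime 3) := ⟨Nat.prime_three⟩
  obtain ⟨K, hK⟩ := Sylow.exists_subgroup_card_pow_prime 3 h81
  have hKp : IsPGroup 3 K := IsPGroup.of_card hK
  have hKn : Nontrivial K := by
    rw [← Finite.one_lt_card_iff_nontrivial, hK]
    norm_num
  have hcn := hKp.center_nontrivial
  -- the action on vectors
  let ev : K → V → V := fun g v => ((g : A) : V ≃ₗ[F] V) v
  have ev_mul : ∀ g h v, ev (g * h) v = ev g (ev h v) := fun _ _ _ => rfl
  have ev_one : ∀ v, ev 1 v = v := fun _ => rfl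
  have coe_pow : ∀ (g : K) (n : ℕ), (((g ^ n : K) : A) : V ≃ₗ[F] V) = (((g : A) : V ≃ₗ[F] V)) ^ n := fun _ _ => rfl
  have coe_mul : ∀ (g h : K), (((g * h : K) : A) : V ≃ₗ[F] V) = (((g : A) : V ≃ₗ[F] V)) * ((h : A) : V ≃ₗ[F] V) :=
    fun _ _ => rfl
  have coe_inj : ∀ g : K, ((g : A) : V ≃ₗ[F] V) = 1 → g = 1 := fun g h => Subtype.ext (Subtype.ext h)
  have hd : ∀ g : K, g ^ 3 = 1 → g ≠ 1 → finrank F (fx (((g : A) : V ≃ₗ[F] V) : Module.End F V)) ≤ 2 := by
    intro g hg hg1
    refine hfx _ (g : A).2 ?_ (fun h => hg1 (coe_inj g h))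
    rw [← coe_pow, hg]; rfl
  -- a central element of order three
  obtain ⟨z, hz1⟩ : ∃ z : Subgroup.center K, z ≠ 1 := exists_ne 1
  obtain ⟨z, hzc, hz3, hz1⟩ : ∃ z : K, (∀ g : K, g * z = z * g) ∧ z ^ 3 = 1 ∧ z ≠ 1 := by
    obtain ⟨n, hn⟩ := (hKp.to_subgroup (Subgroup.center K)) z
    have h1 : 3 ∣ Nat.card (Subgroup.center K) := by
      have h2 := orderOf_dvd_natCard z
      have h3 : orderOf z ∣ 3 ^ n := orderOf_dvd_of_pow_eq_one hn
      obtain ⟨i, hi, hi'⟩ := (Nat.dvd_prime_pow Nat.prime_three).1 h3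
      rcases Nat.eq_zero_or_pos i with rfl | h4
      · rw [pow_zero, orderOf_eq_one_iff] at hi'
        exact absurd hi' hz1
      · rw [hi'] at h2
        exact (dvd_pow_self 3 (by omega)).trans h2
    obtain ⟨y, hy⟩ := exists_prime_orderOf_dvd_card' 3 h1
    refine ⟨y, fun g => (Subgroup.mem_center_iff.1 y.2 g), ?_, ?_⟩
    · rw [← Subgroup.coe_pow, ← hy, pow_orderOf_eq_one]; rfl
    · intro h
      have : y = 1 := Subtype.ext h
      rw [this, orderOf_one] at hy
      omega
  -- uniqueness
  set ζ : Module.End F V := (((z : A) : V ≃ₗ[F] V) : Module.End F V) with hζ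
  have hζ3 : ζ ^ 3 = 1 := by
    apply LinearMap.ext
    intro v
    have : ev (z ^ 3) v = v := by rw [hz3]; rfl
    exact this
  have hfz : finrank F (fx ζ) ≤ 2 := hd z hz3 hz1
  have hrk : finrank F (cm ζ) + finrank F (fx ζ) = 18 := by
    rw [← hn]
    exact LinearMap.finrank_range_add_finrank_ker (ζ - 1)
  have huniq : ∀ y : K, y ^ 3 = 1 → y ≠ 1 → y = z ∨ y = z ^ 2 := by
    intro y hy3 hy1
    by_contra hcon
    push Not at hcon
    have hcz := hzc y
    have h1 : (z * y) ^ 3 = 1 := by rw [Commute.mul_pow (hcz.symm : Commute z y), hz3, hy3, one_mul]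
    have h2 : (z ^ 2 * y) ^ 3 = 1 := by
      rw [Commute.mul_pow ((show Commute z y from hcz.symm).pow_left 2), ← pow_mul, mul_comm 2 3, pow_mul, hz3, hy3, one_pow, one_mul]
    have h3 : z * y ≠ 1 := by
      intro h
      apply hcon.2
      have h4 : z ^ 2 * (z * y) = y := by rw [← mul_assoc, ← pow_succ, hz3, one_mul]
      rw [← h4, h, mul_one]
    have h4 : z ^ 2 * y ≠ 1 := by
      intro h
      apply hcon.1
      have h5 : z * (z ^ 2 * y) = y := by rw [← mul_assoc, ← pow_succ', hz3, one_mul]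
      rw [← h5, h, mul_one]
    have e1 := hd y hy3 hy1
    have e2 := hd _ h2 h4
    have e3 := hd _ h1 h3
    have hy3' : ((((y : A) : V ≃ₗ[F] V) : Module.End F V)) ^ 3 = 1 := by
      apply LinearMap.ext
      intro v
      have : ev (y ^ 3) v = v := by rw [hy3]; rfl
      exact this
    have h5 := cm_le (y := (((y : A) : V ≃ₗ[F] V) : Module.End F V)) (z := ζ) (by
      apply LinearMap.ext
      intro v
      have : ev (y * z) v = ev (z * y) v := by rw [hcz]
      exact this) hy3' hζ3 (c := 2) e1 e2 e3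
    omega
  -- freeness
  let X := {v : V // v ∉ fx ζ}
  have hinv : ∀ (g : K) (v : V), v ∉ fx ζ → ev g v ∉ fx ζ := by
    intro g v hv h
    apply hv
    rw [mem_fx] at h ⊢
    have h1 : ev z (ev g v) = ev g (ev z v) := by rw [← ev_mul, ← ev_mul, hzc g]
    have h2 : ev g (ev z v) = ev g v := by rw [← h1]; exact h
    exact ((g : A) : V ≃ₗ[F] V).injective h2
  let act : MulAction K X :=
    { smul := fun g v => ⟨ev g v.1, hinv g v.1 v.2⟩
      one_smul := fun v => Subtype.ext rfl
      mul_smul := fun g h v => Subtype.ext rfl }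
  have hfree : ∀ (g : K) (x : X), g • x = x → g = 1 := by
    intro g x hx
    have hgx : ev g x.1 = x.1 := congrArg Subtype.val hx
    have hpow : ∀ n : ℕ, ev (g ^ n) x.1 = x.1 := by
      intro n
      induction n with
      | zero => rfl
      | succ n ih => rw [pow_succ', ev_mul, ih, hgx]
    by_contra hg1
    obtain ⟨n, hn⟩ := hKp g
    have h3 : orderOf g ∣ 3 ^ n := orderOf_dvd_of_pow_eq_one hn
    obtain ⟨i, hi, hi'⟩ := (Nat.dvd_prime_pow Nat.prime_three).1 h3
    have hi0 : 1 ≤ i := by
      rcases Nat.eq_zero_or_pos i with rfl | h4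
      · rw [pow_zero, orderOf_eq_one_iff] at hi'
        exact absurd hi' hg1
      · exact h4
    have h4 : (g ^ 3 ^ (i - 1)) ^ 3 = 1 := by
      rw [← pow_mul, ← pow_succ, Nat.sub_add_cancel hi0, ← hi', pow_orderOf_eq_one]
    have h5 : g ^ 3 ^ (i - 1) ≠ 1 := by
      intro h
      have h6 := orderOf_dvd_of_pow_eq_one h
      rw [hi'] at h6
      have h7 := Nat.le_of_dvd (by positivity) h6
      have h8 : 3 ^ (i - 1) < 3 ^ i := Nat.pow_lt_pow_right (by norm_num) (by omega)
      omega
    apply x.2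
    rw [mem_fx]
    rcases huniq _ h4 h5 with h6 | h6
    · have := hpow (3 ^ (i - 1))
      rw [h6] at this
      exact this
    · have h7 := hpow (3 ^ (i - 1))
      rw [h6] at h7
      have h8 : ev (z ^ 3) x.1 = ev z (ev (z ^ 2) x.1) := rfl
      rw [hz3, h7] at h8
      exact h8.symm
  have hdvd := card_dvd_of_free hfree
  have hcard : Nat.card X = 2 ^ 18 - 2 ^ finrank F (fx ζ) := by
    have h1 : Nat.card (fx ζ) + Nat.card X = Nat.card V := by
      have := Nat.card_congr (Equiv.sumCompl (fun v : V => v ∈ fx ζ))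
      rw [Nat.card_sum] at this
      exact this
    have h2 : Nat.card V = 2 ^ 18 := by rw [Module.natCard_eq_pow_finrank (K := F), hF, hn]
    have h3 : Nat.card (fx ζ) = 2 ^ finrank F (fx ζ) := by rw [Module.natCard_eq_pow_finrank (K := F), hF]
    omega
  rw [hK, hcard] at hdvd
  have h2 : finrank F (fx ζ) ≤ 2 := hfz
  rcases (by omega : finrank F (fx ζ) = 0 ∨ finrank F (fx ζ) = 1 ∨ finrank F (fx ζ) = 2) with h | h | h
  · rw [h] at hdvd
    revert hdvd
    norm_num
  · rw [h] at hdvd
    revert hdvd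
    norm_num
  · rw [h] at hdvd
    revert hdvd
    norm_num

end main

end Cfsg.Agent.H383.Mn
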